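import Cfsg.Agent.Lib.Fusion.Alperin

/-!
# Automorphism groups of dihedral and quaternion 2-groups are 2-groups (helper92)
-/

set_option autoImplicit false

namespace Cfsg.Agent.Lib.FusionExt.AutDih

theorem unit_pow_eq_one {N s k : ℕ} (hN : N = 2 ^ s) (hk : Odd k) {u : ZMod N} (h : u ^ k = 1) : u = 1 := by
  subst hN
  haveI : NeZero (2 ^ s) := ⟨by positivity⟩
  have hk0 : k ≠ 0 := by
    rintro rfl
    simp at hk
  let v : (ZMod (2 ^ s))ˣ := Units.ofPowEqOne u k h hk0
  have hv : v ^ k = 1 := Units.pow_ofPowEqOne h hk0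
  obtain ⟨t, ht⟩ : ∃ t, Nat.card (ZMod (2 ^ s))ˣ = 2 ^ t := by
    rw [Nat.card_eq_fintype_card, ZMod.card_units_eq_totient]
    by_cases hs : s = 0
    · subst hs
      exact ⟨0, by simp⟩
    · refine ⟨s - 1, ?_⟩
      rw [Nat.totient_prime_pow Nat.prime_two (Nat.pos_of_ne_zero hs)]
      simp
  have hcard : v ^ (2 ^ t) = 1 := by
    rw [← ht]
    exact pow_card_eq_one'
  have hcop : Nat.Coprime k (2 ^ t) := (Nat.coprime_two_right.2 hk).pow_right t
  have h1 : orderOf v ∣ Nat.gcd k (2 ^ t) := Nat.dvd_gcd (orderOf_dvd_of_pow_eq_one hv) (orderOf_dvd_of_pow_eq_one hcard)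
  rw [hcop, Nat.dvd_one, orderOf_eq_one_iff] at h1
  have h2 : (v : ZMod (2 ^ s)) = u := rfl
  rw [← h2, h1]
  rfl

theorem isPGroup_of_odd {G : Type*} [Group G] [Finite G] (h : ∀ (g : G) (k : ℕ), Odd k → g ^ k = 1 → g = 1) :
    IsPGroup 2 G := by
  intro g
  have h0 : orderOf g ≠ 0 := (orderOf_pos g).ne'
  obtain ⟨s, k, hk, hs⟩ := Nat.exists_eq_two_pow_mul_odd h0
  refine ⟨s, h _ k hk ?_⟩
  rw [← pow_mul, ← hs, pow_orderOf_eq_one]

section dih

open DihedralGroup

theorem dih_odd {m : ℕ} (hm : 2 ≤ m) (α : MulAut (DihedralGroup (2 ^ m))) (k : ℕ) (hk : Odd k) (hα : α ^ k = 1) : α = 1 := by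
  haveI : NeZero (2 ^ m) := ⟨by positivity⟩
  have h2ne : (1 + 1 : ZMod (2 ^ m)) ≠ 0 := by
    intro h
    have h1 : ((2 : ℕ) : ZMod (2 ^ m)) = 0 := by
      rw [← h]
      norm_cast
    rw [ZMod.natCast_eq_zero_iff] at h1
    have h3 := Nat.le_of_dvd (by norm_num) h1
    have h4 : 2 ^ 2 ≤ 2 ^ m := Nat.pow_le_pow_right (by norm_num) hm
    omega
  obtain ⟨u, hu⟩ : ∃ u, α (r 1) = r u := by
    rcases h : α (r 1) with u | i
    · exact ⟨u, rfl⟩
    · exfalso
      have e : α (r (1 + 1)) = 1 := by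
        rw [← r_mul_r, map_mul, h, sr_mul_sr]
        simp
      have e2 : r (1 + 1 : ZMod (2 ^ m)) = 1 := by
        have := α.injective (e.trans (map_one α).symm)
        exact this
      have e3 : (1 + 1 : ZMod (2 ^ m)) = 0 := r.inj e2
      exact h2ne e3
  have hr : ∀ c : ℕ, α (r (c : ZMod (2 ^ m))) = r ((c : ZMod (2 ^ m)) * u) := by
    intro c
    induction c with
    | zero =>
      simp only [Nat.cast_zero, zero_mul]
      exact map_one α
    | succ c ih =>
      rw [Nat.cast_succ, ← r_mul_r, map_mul, ih, hu, r_mul_r]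
      congr 1
      ring
  have hri : ∀ i : ZMod (2 ^ m), α (r i) = r (i * u) := by
    intro i
    have := hr i.val
    rwa [ZMod.natCast_zmod_val] at this
  have hpow : ∀ j : ℕ, (α ^ j) (r 1) = r (u ^ j) := by
    intro j
    induction j with
    | zero => simp
    | succ j ih =>
      rw [pow_succ', MulAut.mul_apply, ih, hri]
      congr 1
      ring
  have hu1 : u = 1 := by
    have h1 := hpow k
    rw [hα] at h1
    have h2 : (1 : ZMod (2 ^ m)) = u ^ k := r.inj h1
    exact unit_pow_eq_one rfl hk h2.symm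
  subst hu1
  have hrfix : ∀ i, α (r i) = r i := fun i => by rw [hri, mul_one]
  obtain ⟨b, hb⟩ : ∃ b, α (sr 0) = sr b := by
    rcases h : α (sr 0) with b | b
    · exfalso
      have e : α (sr 0) = α (r b) := by rw [h, hrfix]
      have := α.injective e
      cases this
    · exact ⟨b, rfl⟩
  have hsr : ∀ c, α (sr c) = sr (b + c) := by
    intro c
    have e : sr c = sr 0 * r c := by
      rw [sr_mul_r, zero_add]
    rw [e, map_mul, hb, hrfix, sr_mul_r]

  have hspow : ∀ j : ℕ, (α ^ j) (sr 0) = sr ((j : ZMod (2 ^ m)) * b) := by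
    intro j
    induction j with
    | zero => simp
    | succ j ih =>
      rw [pow_succ', MulAut.mul_apply, ih, hsr]
      congr 1
      push_cast
      ring
  have hb0 : b = 0 := by
    have h1 := hspow k
    rw [hα] at h1
    have h2 : (0 : ZMod (2 ^ m)) = (k : ZMod (2 ^ m)) * b := sr.inj h1
    have hcop : Nat.Coprime k (2 ^ m) := (Nat.coprime_two_right.2 hk).pow_right m
    have hunit : IsUnit (k : ZMod (2 ^ m)) := (ZMod.isUnit_iff_coprime k (2 ^ m)).2 hcop
    exact (hunit.mul_right_eq_zero).1 h2.symm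
  subst hb0
  refine MulEquiv.ext fun x => ?_
  rcases x with i | i
  · exact hrfix i
  · rw [hsr, zero_add]
    rfl

end dih

section quat

open QuaternionGroup

theorem quat_odd {m : ℕ} (hm : 2 ≤ m) (α : MulAut (QuaternionGroup (2 ^ m))) (k : ℕ) (hk : Odd k) (hα : α ^ k = 1) : α = 1 := by
  haveI : NeZero (2 ^ m) := ⟨by positivity⟩
  haveI : NeZero (2 * 2 ^ m) := ⟨by positivity⟩
  have hN : 2 * 2 ^ m = 2 ^ (m + 1) := by rw [pow_succ]; ring
  have h2ne : ((4 : ℕ) : ZMod (2 * 2 ^ m)) ≠ 0 := by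
    intro h1
    rw [ZMod.natCast_eq_zero_iff] at h1
    have h3 := Nat.le_of_dvd (by norm_num) h1
    have h4 : 2 ^ 2 ≤ 2 ^ m := Nat.pow_le_pow_right (by norm_num) hm
    omega
  obtain ⟨u, hu⟩ : ∃ u, α (a 1) = a u := by
    rcases h : α (a 1) with u | i
    · exact ⟨u, rfl⟩
    · exfalso
      have e : α ((a 1) ^ 4) = 1 := by
        rw [map_pow, h, xa_pow_four]
      have e2 : (a 1 : QuaternionGroup (2 ^ m)) ^ 4 = 1 := by
        have := α.injective (e.trans (map_one α).symm)
        exact this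
      rw [a_one_pow] at e2
      have e3 : ((4 : ℕ) : ZMod (2 * 2 ^ m)) = 0 := a.inj e2
      exact h2ne e3
  have hr : ∀ c : ℕ, α (a (c : ZMod (2 * 2 ^ m))) = a ((c : ZMod (2 * 2 ^ m)) * u) := by
    intro c
    induction c with
    | zero =>
      simp only [Nat.cast_zero, zero_mul]
      exact map_one α
    | succ c ih =>
      rw [Nat.cast_succ, ← a_mul_a, map_mul, ih, hu, a_mul_a]
      congr 1
      ring
  have hri : ∀ i : ZMod (2 * 2 ^ m), α (a i) = a (i * u) := by
    intro i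
    have := hr i.val
    rwa [ZMod.natCast_zmod_val] at this
  have hpow : ∀ j : ℕ, (α ^ j) (a 1) = a (u ^ j) := by
    intro j
    induction j with
    | zero => simp
    | succ j ih =>
      rw [pow_succ', MulAut.mul_apply, ih, hri]
      congr 1
      ring
  have hu1 : u = 1 := by
    have h1 := hpow k
    rw [hα] at h1
    have h2 : (1 : ZMod (2 * 2 ^ m)) = u ^ k := a.inj h1
    exact unit_pow_eq_one hN hk h2.symm
  subst hu1
  have hrfix : ∀ i, α (a i) = a i := fun i => by rw [hri, mul_one]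
  obtain ⟨b, hb⟩ : ∃ b, α (xa 0) = xa b := by
    rcases h : α (xa 0) with b | b
    · exfalso
      have e : α (xa 0) = α (a b) := by rw [h, hrfix]
      have := α.injective e
      cases this
    · exact ⟨b, rfl⟩
  have hsr : ∀ c, α (xa c) = xa (b + c) := by
    intro c
    have e : xa c = xa 0 * a c := by
      rw [xa_mul_a, zero_add]
    rw [e, map_mul, hb, hrfix, xa_mul_a]

  have hspow : ∀ j : ℕ, (α ^ j) (xa 0) = xa ((j : ZMod (2 * 2 ^ m)) * b) := by
    intro j
    induction j with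
    | zero => simp
    | succ j ih =>
      rw [pow_succ', MulAut.mul_apply, ih, hsr]
      congr 1
      push_cast
      ring
  have hb0 : b = 0 := by
    have h1 := hspow k
    rw [hα] at h1
    have h2 : (0 : ZMod (2 * 2 ^ m)) = (k : ZMod (2 * 2 ^ m)) * b := xa.inj h1
    have hcop : Nat.Coprime k (2 * 2 ^ m) := by
      rw [hN]
      exact (Nat.coprime_two_right.2 hk).pow_right _
    have hunit : IsUnit (k : ZMod (2 * 2 ^ m)) := (ZMod.isUnit_iff_coprime k _).2 hcop
    exact (hunit.mul_right_eq_zero).1 h2.symm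
  subst hb0
  refine MulEquiv.ext fun x => ?_
  rcases x with i | i
  · exact hrfix i
  · rw [hsr, zero_add]
    rfl

end quat

variable {Ω : Type*} [Group Ω] {S : Subgroup Ω} [Finite S]

theorem isPGroup_mulAut_of_odd {D : Type*} [Group D] (e : S ≃* D)
    (h : ∀ (α : MulAut D) (k : ℕ), Odd k → α ^ k = 1 → α = 1) : IsPGroup 2 (MulAut S) := by
  haveI : Finite (MulAut S) := inferInstance
  refine isPGroup_of_odd fun g k hk hg => ?_
  have h1 : (MulAut.congr e g) ^ k = 1 := by
    rw [← map_pow, hg, map_one]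
  have h2 := h _ k hk h1
  exact (MulAut.congr e).injective (h2.trans (map_one _).symm)

open Cfsg Cfsg.FusionSystem Cfsg.Agent.Lib.Fusion.Basic

theorem autGroup_eq_inn (hS : IsPGroup 2 S) (F : FusionSystem S) (hF : F.IsSaturated 2)
    (hA : IsPGroup 2 (MulAut S)) : F.autGroup S = Inn S := by
  haveI : Fact (Nat.Prime 2) := ⟨Nat.prime_two⟩
  have h1 := Cfsg.Agent.Lib.Fusion.Alperin.autGroup_eq_of_isPGroup F hS hF
    (Cfsg.Agent.Lib.Fusion.Saturation2.isFullyNormalized_top F hS) (hA.to_subgroup _)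
  rw [h1]
  refine le_antisymm ?_ (inn_le_autInducedBy S le_rfl)
  intro α hα
  obtain ⟨g, hg, hgα⟩ := (mem_autInducedBy_iff S S α).1 hα
  refine ⟨⟨g, hg⟩, ?_⟩
  refine MulEquiv.ext fun x => Subtype.ext ?_
  exact (hgα x).symm

end Cfsg.Agent.Lib.FusionExt.AutDih
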